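import Mathlib
import Cfsg.Agent.Lib.Helper73.AB.Defs

/-!
# Project AB (S2506), package [CONJ]: largest abelian subgroups of `Alt(Ω)` are conjugate in
`Sym(Ω)`.
-/

set_option autoImplicit false

namespace Cfsg.Agent.Lib.Helper63.AB

open Equiv
open Cfsg.Agent.Lib.Helper73.AB

/-- Membership in a conjugate subgroup. -/
theorem mem_map_conj {G : Type} [Group G] (τ : G) (B : Subgroup G) (g : G) :
    g ∈ B.map (MulAut.conj τ).toMonoidHom ↔ τ⁻¹ * g * τ ∈ B := by
  constructor
  · rintro ⟨h, hh, rfl⟩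
    simp only [MulEquiv.coe_toMonoidHom, MulAut.conj_apply]
    have h1 : τ⁻¹ * (τ * h * τ⁻¹) * τ = h := by group
    rw [h1]; exact hh
  · intro h
    refine ⟨τ⁻¹ * g * τ, h, ?_⟩
    simp only [MulEquiv.coe_toMonoidHom, MulAut.conj_apply]
    group

/-- Conjugates of largest abelian subgroups are largest abelian subgroups. -/
theorem isMaxAb_map_conj {Ω : Type} [Fintype Ω] [DecidableEq Ω] (τ : Perm Ω)
    (B : Subgroup (Perm Ω)) (hB : IsMaxAb B) : IsMaxAb (B.map (MulAut.conj τ).toMonoidHom) := by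
  obtain ⟨h1, h2, h3⟩ := hB
  refine ⟨?_, ?_, ?_⟩
  · rintro _ ⟨h, hh, rfl⟩
    have h4 := h1 hh
    rw [Equiv.Perm.mem_alternatingGroup] at h4 ⊢
    simp only [MulEquiv.coe_toMonoidHom, MulAut.conj_apply, map_mul, map_inv]
    rw [h4, mul_one, mul_inv_cancel]
  · rintro _ ⟨x, hx, rfl⟩ _ ⟨y, hy, rfl⟩
    simp only [MulEquiv.coe_toMonoidHom, MulAut.conj_apply]
    have h4 := h2 x hx y hy
    calc τ * x * τ⁻¹ * (τ * y * τ⁻¹) = τ * (x * y) * τ⁻¹ := by group
      _ = τ * (y * x) * τ⁻¹ := by rw [h4]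
      _ = τ * y * τ⁻¹ * (τ * x * τ⁻¹) := by group
  · intro C hC1 hC2
    rw [Subgroup.card_map_of_injective (MulAut.conj τ).injective]
    exact h3 C hC1 hC2

/-- The orbit of a point as a finset. -/
noncomputable def orbF {Ω : Type} [Fintype Ω] (A : Subgroup (Perm Ω)) (a : Ω) : Finset Ω := by
  classical exact Finset.univ.filter (fun x => ∃ g ∈ A, g a = x)

theorem mem_orbF {Ω : Type} [Fintype Ω] (A : Subgroup (Perm Ω)) (a x : Ω) :
    x ∈ orbF A a ↔ ∃ g ∈ A, g a = x := by
  classical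
  simp [orbF]

/-- If all orbits have three points, the degree is divisible by 3. -/
theorem three_dvd_of_orbF {Ω : Type} [Fintype Ω] (A : Subgroup (Perm Ω))
    (h : ∀ a : Ω, (orbF A a).card = 3) : 3 ∣ Fintype.card Ω := by
  classical
  have hcard : ∀ a : Ω, Nat.card (MulAction.orbit A a) = 3 := by
    intro a
    have hset : MulAction.orbit A a = ((orbF A a : Finset Ω) : Set Ω) := by
      ext x
      rw [Finset.mem_coe, mem_orbF, MulAction.mem_orbit_iff]
      constructor
      · rintro ⟨g, rfl⟩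
        exact ⟨g.1, g.2, rfl⟩
      · rintro ⟨g, hg, rfl⟩
        exact ⟨⟨g, hg⟩, rfl⟩
    rw [hset, Nat.card_coe_set_eq, Set.ncard_coe_finset]
    exact h a
  have e := MulAction.selfEquivSigmaOrbits A Ω
  rw [← Nat.card_eq_fintype_card, Nat.card_congr e, Nat.card_sigma]
  apply Finset.dvd_sum
  intro ω _
  rw [hcard]

/-- Subgroups of order 5 of `Sym(5)` are conjugate. -/
theorem conj_of_card_five {Ω : Type} [Fintype Ω] [DecidableEq Ω] (h5 : Fintype.card Ω = 5)
    (A B : Subgroup (Perm Ω)) (hA : Nat.card A = 5) (hB : Nat.card B = 5) :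
    ∃ σ : Perm Ω, B = A.map (MulAut.conj σ).toMonoidHom := by
  haveI : Fact (Nat.Prime 5) := ⟨by norm_num⟩
  have hcard : Nat.card (Perm Ω) = 120 := by
    rw [Nat.card_eq_fintype_card, Fintype.card_perm, h5]; rfl
  have key : ∀ (C : Subgroup (Perm Ω)), Nat.card C = 5 →
      ∃ P : Sylow 5 (Perm Ω), (P : Subgroup (Perm Ω)) = C := by
    intro C hC
    have hp : IsPGroup 5 C := IsPGroup.of_card (n := 1) (by rw [hC]; rfl)
    obtain ⟨P, hP⟩ := hp.exists_le_sylow
    refine ⟨P, ?_⟩
    obtain ⟨k, hk⟩ := (IsPGroup.iff_card.mp P.2)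
    have hdvd : Nat.card (P : Subgroup (Perm Ω)) ∣ 120 := by
      rw [← hcard]; exact Subgroup.card_subgroup_dvd_card _
    have hle : 5 ≤ Nat.card (P : Subgroup (Perm Ω)) := by
      have h0 := Subgroup.card_le_of_le hP
      rw [hC] at h0; exact h0
    have hk1 : k = 1 := by
      rw [hk] at hdvd hle
      rcases Nat.lt_or_ge k 2 with h | h
      · interval_cases k
        · norm_num at hle
        · rfl
      · exfalso
        have h25 : 5 ^ 2 ∣ 120 := dvd_trans (Nat.pow_dvd_pow 5 h) hdvd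
        norm_num at h25
    symm
    apply Subgroup.eq_of_le_of_card_ge hP
    rw [hk, hk1, hC]; norm_num
  obtain ⟨PA, hPA⟩ := key A hA
  obtain ⟨PB, hPB⟩ := key B hB
  obtain ⟨g, hg⟩ := MulAction.exists_smul_eq (Perm Ω) PA PB
  refine ⟨g, ?_⟩
  rw [← hPA, ← hPB, ← hg]
  rfl

/-- The main step: glue a conjugating permutation of the complement of a common orbit. -/
theorem conj_step {Ω : Type} [Fintype Ω] [DecidableEq Ω] (A B₁ : Subgroup (Perm Ω))
    (O : Finset Ω)
    (h4A : ∀ g : Perm Ω, (∀ x, x ∉ O → g x = x) → (g ∈ A ↔ CanOn g O))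
    (h4B : ∀ g : Perm Ω, (∀ x, x ∉ O → g x = x) → (g ∈ B₁ ↔ CanOn g O))
    (h5A : ∀ g ∈ A, ∃ c ∈ A, (∀ x, x ∉ O → c x = x) ∧ ∀ x ∈ O, c x = g x)
    (hcard : Nat.card B₁ ≤ Nat.card A)
    (σ' : Perm {x // x ∉ O})
    (hσ : B₁.comap (Perm.ofSubtype : Perm {x // x ∉ O} →* Perm Ω) =
      (A.comap (Perm.ofSubtype : Perm {x // x ∉ O} →* Perm Ω)).map
        (MulAut.conj σ').toMonoidHom) :
    B₁ = A.map (MulAut.conj (Perm.ofSubtype σ')).toMonoidHom := by
  set σ : Perm Ω := Perm.ofSubtype σ' with hσdef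
  have hσO : ∀ x, x ∈ O → σ x = x := by
    intro x hx
    exact Perm.ofSubtype_apply_of_not_mem σ' (fun h => h hx)
  have hσO' : ∀ x, x ∉ O → σ x ∉ O := by
    intro x hx
    exact (Perm.ofSubtype_apply_mem_iff_mem σ' x).mpr hx
  have hle : A.map (MulAut.conj σ).toMonoidHom ≤ B₁ := by
    rintro _ ⟨g, hg, rfl⟩
    simp only [MulEquiv.coe_toMonoidHom, MulAut.conj_apply]
    obtain ⟨c, hcA, hcO, hcg⟩ := h5A g hg
    have hcinv : ∀ z, z ∈ O → c⁻¹ z ∈ O := by
      intro z hz
      by_contra hn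
      have h1 := hcO (c⁻¹ z) hn
      rw [show c (c⁻¹ z) = z from Equiv.apply_symm_apply c z] at h1
      rw [← h1] at hn; exact hn hz
    have hcmem : ∀ z, z ∈ O → c z ∈ O := by
      intro z hz
      by_contra hn
      have h1 := hcO (c z) hn
      have h2 : c z = z := c.injective h1
      rw [h2] at hn; exact hn hz
    set h := g * c⁻¹ with hh
    have hhA : h ∈ A := A.mul_mem hg (A.inv_mem hcA)
    have hhO : ∀ z, z ∈ O → h z = z := by
      intro z hz
      have h1 := hcg (c⁻¹ z) (hcinv z hz)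
      rw [show c (c⁻¹ z) = z from Equiv.apply_symm_apply c z] at h1
      rw [hh, Perm.mul_apply]; exact h1.symm
    have hhiff : ∀ z, h z ∉ O ↔ z ∉ O := by
      intro z
      constructor
      · intro h1 h2
        rw [hhO z h2] at h1; exact h1 h2
      · intro h1 h2
        have h3 := hhO (h z) h2
        have h4 : h z = z := h.injective h3
        rw [h4] at h2; exact h1 h2
    let h' : Perm {x // x ∉ O} := Perm.subtypePerm h hhiff
    have hh' : Perm.ofSubtype h' = h := by
      apply Perm.ofSubtype_subtypePerm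
      intro x hx hxO
      exact hx (hhO x hxO)
    have hh'A : h' ∈ A.comap (Perm.ofSubtype : Perm {x // x ∉ O} →* Perm Ω) := by
      rw [Subgroup.mem_comap, hh']; exact hhA
    have h1 : σ' * h' * σ'⁻¹ ∈ B₁.comap (Perm.ofSubtype : Perm {x // x ∉ O} →* Perm Ω) := by
      rw [hσ]
      exact ⟨h', hh'A, rfl⟩
    have h2 : σ * h * σ⁻¹ ∈ B₁ := by
      rw [Subgroup.mem_comap, map_mul, map_mul, map_inv, hh'] at h1
      exact h1
    have hcB : c ∈ B₁ := (h4B c hcO).mpr ((h4A c hcO).mp hcA)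
    have hσc : σ * c * σ⁻¹ = c := by
      have hcomm : σ * c = c * σ := by
        ext x
        simp only [Perm.mul_apply]
        by_cases hx : x ∈ O
        · rw [hσO x hx, hσO _ (hcmem x hx)]
        · rw [hcO x hx, hcO _ (hσO' x hx)]
      rw [hcomm]; group
    have hsplit : σ * g * σ⁻¹ = (σ * h * σ⁻¹) * (σ * c * σ⁻¹) := by rw [hh]; group
    rw [hsplit, hσc]
    exact B₁.mul_mem h2 hcB
  symm
  apply Subgroup.eq_of_le_of_card_ge hle
  rw [Subgroup.card_map_of_injective (MulAut.conj σ).injective]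
  exact hcard

theorem lemAbConj_of (hE : LemAbExist) (hB : LemAbBound) (hO : LemAbOrb) : LemAbConj := by
  have main : ∀ n : ℕ, ∀ (Ω : Type) [Fintype Ω] [DecidableEq Ω], Fintype.card Ω = n →
      ∀ (A B : Subgroup (Perm Ω)), IsMaxAb A → IsMaxAb B →
      ∃ σ : Perm Ω, B = A.map (MulAut.conj σ).toMonoidHom := by
    intro n
    induction n using Nat.strong_induction_on with
    | _ n ih =>
      intro Ω _ _ hn A B hA hB'
      have hcardeq : ∀ C : Subgroup (Perm Ω), IsMaxAb C → Nat.card C = fmax n := by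
        intro C hC
        obtain ⟨D, hD1, hD2, hD3⟩ := hE Ω
        apply le_antisymm
        · rw [← hn]; exact hB Ω C hC.1 hC.2.1
        · rw [← hn, ← hD3]; exact hC.2.2 D hD1 hD2
      by_cases hn2 : n ≤ 2
      · have hf : fmax n = 1 := by interval_cases n <;> rfl
        have hAbot : A = ⊥ := Subgroup.eq_bot_of_card_le A (by rw [hcardeq A hA, hf])
        have hBbot : B = ⊥ := Subgroup.eq_bot_of_card_le B (by rw [hcardeq B hB', hf])
        refine ⟨1, ?_⟩
        rw [hAbot, hBbot, Subgroup.map_bot]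
      by_cases hn5 : n = 5
      · subst hn5
        exact conj_of_card_five hn A B (by rw [hcardeq A hA]; rfl) (by rw [hcardeq B hB']; rfl)
      have h3 : 3 ≤ Fintype.card Ω := by omega
      have h5 : Fintype.card Ω ≠ 5 := by omega
      have horb : ∀ (C : Subgroup (Perm Ω)), IsMaxAb C → ∀ c : Ω,
          ((orbF C c).card = 3 ∨ (orbF C c).card = 4) ∧
            (Fintype.card Ω % 3 = 0 → (orbF C c).card = 3) := by
        intro C hC c
        obtain ⟨h1, h2, -⟩ := hO Ω C c (orbF C c) hC h3 h5 (mem_orbF C c)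
        exact ⟨h1, h2⟩
      have hne : Nonempty Ω := by rw [← Fintype.card_pos_iff]; omega
      have hchoose : ∃ a b : Ω, (orbF A a).card = (orbF B b).card := by
        by_cases h3n : Fintype.card Ω % 3 = 0
        · obtain ⟨a⟩ := hne
          exact ⟨a, a, by rw [(horb A hA a).2 h3n, (horb B hB' a).2 h3n]⟩
        · have hex : ∀ (C : Subgroup (Perm Ω)), IsMaxAb C → ∃ c : Ω, (orbF C c).card = 4 := by
            intro C hC
            by_contra hno
            push Not at hno
            have hall : ∀ c : Ω, (orbF C c).card = 3 :=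
              fun c => ((horb C hC c).1).resolve_right (hno c)
            have := three_dvd_of_orbF C hall
            omega
          obtain ⟨a, ha⟩ := hex A hA
          obtain ⟨b, hb⟩ := hex B hB'
          exact ⟨a, b, by rw [ha, hb]⟩
      obtain ⟨a, b, hab⟩ := hchoose
      set O := orbF A a with hOdef
      obtain ⟨τ, hτ⟩ : ∃ τ : Perm Ω, ∀ x, τ x ∈ O ↔ x ∈ orbF B b := by
        let e : {x // x ∈ orbF B b} ≃ {x // x ∈ O} := Finset.equivOfCardEq hab.symm
        refine ⟨e.extendSubtype, fun x => ?_⟩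
        constructor
        · intro hx
          by_contra hx1
          exact e.extendSubtype_not_mem x hx1 hx
        · intro hx
          exact e.extendSubtype_mem x hx
      set B₁ := B.map (MulAut.conj τ).toMonoidHom with hB₁
      have hB₁max : IsMaxAb B₁ := isMaxAb_map_conj τ B hB'
      have hOB₁ : ∀ x, x ∈ O ↔ ∃ g ∈ B₁, g (τ b) = x := by
        intro x
        constructor
        · intro hx
          have h1 : τ⁻¹ x ∈ orbF B b := by
            rw [← hτ, show τ (τ⁻¹ x) = x from Equiv.apply_symm_apply τ x]; exact hx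
          obtain ⟨g, hg, hgb⟩ := (mem_orbF B b _).mp h1
          refine ⟨τ * g * τ⁻¹, ⟨g, hg, rfl⟩, ?_⟩
          simp only [Perm.mul_apply]
          rw [show τ⁻¹ (τ b) = b from Equiv.symm_apply_apply τ b, hgb,
            show τ (τ⁻¹ x) = x from Equiv.apply_symm_apply τ x]
        · rintro ⟨_, ⟨g, hg, rfl⟩, rfl⟩
          simp only [MulEquiv.coe_toMonoidHom, MulAut.conj_apply, Perm.mul_apply]
          rw [show τ⁻¹ (τ b) = b from Equiv.symm_apply_apply τ b, hτ, mem_orbF]
          exact ⟨g, hg, rfl⟩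
      obtain ⟨-, -, h3A, h4A, h5A⟩ := hO Ω A a O hA h3 h5 (mem_orbF A a)
      obtain ⟨-, -, h3B, h4B, -⟩ := hO Ω B₁ (τ b) O hB₁max h3 h5 hOB₁
      have haO : a ∈ O := (mem_orbF A a a).mpr ⟨1, A.one_mem, rfl⟩
      have hlt : Fintype.card {x // x ∉ O} < n := by
        rw [← hn]
        exact Fintype.card_subtype_lt (x := a) (fun h => h haO)
      obtain ⟨σ', hσ'⟩ := ih _ hlt {x // x ∉ O} rfl _ _ h3A h3B
      have hstep := conj_step A B₁ O h4A h4B h5A (hA.2.2 B₁ hB₁max.1 hB₁max.2.1) σ' hσ'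
      refine ⟨τ⁻¹ * Perm.ofSubtype σ', ?_⟩
      ext g
      rw [mem_map_conj]
      have h1 : g ∈ B ↔ τ * g * τ⁻¹ ∈ B₁ := by
        rw [hB₁, mem_map_conj]
        have h2 : τ⁻¹ * (τ * g * τ⁻¹) * τ = g := by group
        rw [h2]
      rw [h1, hstep, mem_map_conj]
      have h2 : (Perm.ofSubtype σ')⁻¹ * (τ * g * τ⁻¹) * Perm.ofSubtype σ' =
          (τ⁻¹ * Perm.ofSubtype σ')⁻¹ * g * (τ⁻¹ * Perm.ofSubtype σ') := by group
      rw [h2]
  intro Ω _ _ A B hA hB'
  exact main _ Ω rfl A B hA hB'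

end Cfsg.Agent.Lib.Helper63.AB
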