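import Mathlib
import Cfsg.Agent.Lib.Helper73.AB.Defs

/-!
# Project AB (S2506), package [PAR]: a largest abelian subgroup of `Alt(Ω)` is normalized by a
transposition.
-/

set_option autoImplicit false

namespace Cfsg.Agent.Lib.Helper63.AB

open Equiv
open Cfsg.Agent.Lib.Helper73.AB

theorem lemAbPar_of (hO : LemAbOrb) : LemAbPar := by
  intro Ω _ _ A hA h3 h5
  classical
  have hne : Nonempty Ω := by
    rw [← Fintype.card_pos_iff]; omega
  obtain ⟨a⟩ := hne
  let O : Finset Ω := Finset.univ.filter (fun x => ∃ g ∈ A, g a = x)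
  have hOmem : ∀ x, x ∈ O ↔ ∃ g ∈ A, g a = x := by
    intro x; simp [O]
  obtain ⟨hcard, -, -, h4, h5'⟩ := hO Ω A a O hA h3 h5 hOmem
  have h1lt : 1 < O.card := by rcases hcard with h | h <;> omega
  obtain ⟨x, hx, y, hy, hxy⟩ := Finset.one_lt_card.mp h1lt
  let τ : Perm Ω := Equiv.swap x y
  have hτO : ∀ z, z ∉ O → τ z = z := by
    intro z hz
    apply Equiv.swap_apply_of_ne_of_ne
    · rintro rfl; exact hz hx
    · rintro rfl; exact hz hy
  have hτmem : ∀ z, z ∈ O → τ z ∈ O := by
    intro z hz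
    by_cases h1 : z = x
    · subst h1
      rw [show τ z = y from Equiv.swap_apply_left _ _]; exact hy
    · by_cases h2 : z = y
      · subst h2
        rw [show τ z = x from Equiv.swap_apply_right _ _]; exact hx
      · rw [show τ z = z from Equiv.swap_apply_of_ne_of_ne h1 h2]; exact hz
  have hττ : ∀ z, τ (τ z) = z := fun z => Equiv.swap_apply_self x y z
  have hτinv : τ⁻¹ = τ := Equiv.swap_inv x y
  have key : ∀ g ∈ A, τ * g * τ⁻¹ ∈ A := by
    intro g hg
    obtain ⟨c, hcA, hcO, hcg⟩ := h5' g hg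
    have hcinv : ∀ z, z ∈ O → c⁻¹ z ∈ O := by
      intro z hz
      by_contra hn
      have h1 := hcO (c⁻¹ z) hn
      rw [show c (c⁻¹ z) = z from Equiv.apply_symm_apply c z] at h1
      rw [← h1] at hn; exact hn hz
    set h := g * c⁻¹ with hh
    have hhA : h ∈ A := A.mul_mem hg (A.inv_mem hcA)
    have hhO : ∀ z, z ∈ O → h z = z := by
      intro z hz
      have h1 := hcg (c⁻¹ z) (hcinv z hz)
      rw [show c (c⁻¹ z) = z from Equiv.apply_symm_apply c z] at h1
      rw [hh, Perm.mul_apply]; exact h1.symm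
    have hhO' : ∀ z, z ∉ O → h z ∉ O := by
      intro z hz hn
      have h1 := hhO (h z) hn
      have h2 : h z = z := h.injective h1
      rw [h2] at hn; exact hz hn
    have hτh : τ * h * τ⁻¹ = h := by
      ext z
      simp only [Perm.mul_apply]
      rw [hτinv]
      by_cases hz : z ∈ O
      · rw [hhO _ (hτmem z hz), hττ, hhO z hz]
      · rw [hτO z hz, hτO _ (hhO' z hz)]
    have hsupp : ∀ z, z ∉ O → (τ * c * τ⁻¹) z = z := by
      intro z hz
      simp only [Perm.mul_apply, hτinv]
      rw [hτO z hz, hcO z hz, hτO z hz]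
    have hτc : τ * c * τ⁻¹ ∈ A := by
      rw [h4 (τ * c * τ⁻¹) hsupp]
      have hcan := (h4 c hcO).mp hcA
      rcases hcan with hfix | ⟨hnofix, hsq⟩
      · left
        intro z hz
        simp only [Perm.mul_apply, hτinv]
        rw [hfix _ (hτmem z hz), hττ]
      · right
        refine ⟨?_, ?_⟩
        · intro z hz hzz
          simp only [Perm.mul_apply, hτinv] at hzz
          apply hnofix (τ z) (hτmem z hz)
          have h1 := congrArg τ hzz
          rw [hττ] at h1
          exact h1
        · intro h4c z hz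
          simp only [Perm.mul_apply, hτinv]
          rw [hττ, hsq h4c _ (hτmem z hz), hττ]
    have hsplit : τ * g * τ⁻¹ = (τ * h * τ⁻¹) * (τ * c * τ⁻¹) := by
      rw [hh]; group
    rw [hsplit, hτh]
    exact A.mul_mem hhA hτc
  refine ⟨τ, Equiv.Perm.sign_swap hxy, ?_⟩
  apply le_antisymm
  · rintro _ ⟨g, hg, rfl⟩
    simp only [MulEquiv.coe_toMonoidHom, MulAut.conj_apply]
    exact key g hg
  · intro g hg
    refine ⟨τ * g * τ⁻¹, key g hg, ?_⟩
    simp only [MulEquiv.coe_toMonoidHom, MulAut.conj_apply]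
    rw [hτinv]
    ext z
    simp only [Perm.mul_apply, hττ]

end Cfsg.Agent.Lib.Helper63.AB
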